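import Mathlib
import Cfsg.Agent.Lib.Helper58.SpecProd.Defs

/-!
SpecProd package [PB] (helper11): `PSL_n(2)` has an element of order `2 ^ d - 1` for
`1 ≤ d ≤ n`.
-/

set_option autoImplicit false

namespace Cfsg.Agent.Lib.Helper11.SpecProd

open Cfsg.Agent.Lib.Helper58.SpecProd

universe u

/-- A Singer cycle: an invertible `d × d` matrix of order `q ^ d - 1`. -/
theorem exists_matrix_order (F : Type*) [Field F] [Fintype F] {d : ℕ} (hd : 1 ≤ d) :
    ∃ M : Matrix (Fin d) (Fin d) F, orderOf M = Fintype.card F ^ d - 1 ∧ IsUnit M := by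
  classical
  haveI : Fact (ringChar F).Prime := ⟨CharP.char_is_prime F (ringChar F)⟩
  haveI : NeZero d := ⟨by omega⟩
  have hrank : Module.finrank F (FiniteField.Extension F (ringChar F) d) = d :=
    FiniteField.finrank_extension F (ringChar F) d
  have hcard : Nat.card (FiniteField.Extension F (ringChar F) d) = Fintype.card F ^ d := by
    rw [FiniteField.natCard_extension, Nat.card_eq_fintype_card]
  obtain ⟨b⟩ : Nonempty (Module.Basis (Fin d) F (FiniteField.Extension F (ringChar F) d)) :=
    ⟨Module.finBasisOfFinrankEq F _ hrank⟩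
  obtain ⟨ψ, hψ⟩ : ∃ ψ : FiniteField.Extension F (ringChar F) d →ₐ[F] Matrix (Fin d) (Fin d) F,
      ψ = Algebra.leftMulMatrix b := ⟨_, rfl⟩
  have hinj : Function.Injective ψ := hψ ▸ Algebra.leftMulMatrix_injective b
  haveI : Fintype (FiniteField.Extension F (ringChar F) d) := Fintype.ofFinite _
  obtain ⟨ζ, hζ⟩ := IsCyclic.exists_generator (α := (FiniteField.Extension F (ringChar F) d)ˣ)
  have hord : orderOf ζ = Fintype.card F ^ d - 1 := by
    rw [orderOf_eq_card_of_forall_mem_zpowers hζ, Nat.card_units, hcard]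
  refine ⟨ψ (ζ : FiniteField.Extension F (ringChar F) d), ?_, ?_⟩
  · have h1 := orderOf_injective
      (ψ : FiniteField.Extension F (ringChar F) d →* Matrix (Fin d) (Fin d) F) hinj
      (ζ : FiniteField.Extension F (ringChar F) d)
    rw [← hord, ← orderOf_units (y := ζ)]
    exact h1
  · exact ζ.isUnit.map ψ

/-- Block embedding `M ↦ diag(M, 1)` preserves the order and the determinant. -/
theorem blockEmbed_order {F : Type*} [Field F] {d n : ℕ} (hdn : d ≤ n)
    (M : Matrix (Fin d) (Fin d) F) :
    ∃ A : Matrix (Fin n) (Fin n) F, orderOf A = orderOf M ∧ A.det = M.det := by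
  classical
  let e : Fin d ⊕ Fin (n - d) ≃ Fin n := finSumFinEquiv.trans (finCongr (by omega))
  have hpow : ∀ k : ℕ, (Matrix.fromBlocks M 0 0 (1 : Matrix (Fin (n - d)) (Fin (n - d)) F)) ^ k =
      Matrix.fromBlocks (M ^ k) 0 0 1 := by
    intro k
    induction k with
    | zero => simp [Matrix.fromBlocks_one]
    | succ k ih =>
      rw [pow_succ, ih, Matrix.fromBlocks_multiply, pow_succ]
      simp
  refine ⟨Matrix.reindexAlgEquiv F F e (Matrix.fromBlocks M 0 0 1), ?_, ?_⟩
  · rw [orderOf_eq_orderOf_iff]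
    intro k
    rw [← map_pow, hpow]
    constructor
    · intro h
      rw [← map_one (Matrix.reindexAlgEquiv F F e)] at h
      have h1 := (Matrix.reindexAlgEquiv F F e).injective h
      rw [← Matrix.fromBlocks_one, Matrix.fromBlocks_inj] at h1
      exact h1.1
    · intro h
      rw [h, Matrix.fromBlocks_one, map_one]
  · rw [Matrix.det_reindexAlgEquiv, Matrix.det_fromBlocks_zero₂₁, Matrix.det_one, mul_one]

/-- [PB] -/
theorem pkgPow2B : PkgPow2B.{u} := by
  intro F _ _ hF n d hd hdn
  classical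
  have h01 : ∀ x : F, x ≠ 0 → x = 1 := by
    intro x hx
    have h1 : Fintype.card Fˣ = 1 := by rw [Fintype.card_units, hF]
    have h2 := (Fintype.card_le_one_iff.mp h1.le) (Units.mk0 x hx) 1
    have h3 := congrArg Units.val h2
    simpa using h3
  obtain ⟨M, hM, hMu⟩ := exists_matrix_order F hd
  obtain ⟨A, hA, hAdet⟩ := blockEmbed_order hdn M
  have hdet : A.det = 1 := by
    rw [hAdet]
    exact h01 _ ((Matrix.isUnit_iff_isUnit_det M).mp hMu).ne_zero
  obtain ⟨A', hA'c⟩ : ∃ A' : Matrix.SpecialLinearGroup (Fin n) F,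
      (A' : Matrix (Fin n) (Fin n) F) = A := ⟨⟨A, hdet⟩, rfl⟩
  have hA' : orderOf A' = orderOf A := by
    rw [orderOf_eq_orderOf_iff]
    intro k
    constructor
    · intro h
      have h1 := congrArg Subtype.val h
      rw [Matrix.SpecialLinearGroup.coe_pow, hA'c] at h1
      exact h1
    · intro h
      apply Subtype.ext
      rw [Matrix.SpecialLinearGroup.coe_pow, hA'c, h]
      rfl
  have hcen : Subgroup.center (Matrix.SpecialLinearGroup (Fin n) F) = ⊥ := by
    rw [eq_bot_iff]
    intro B hB
    rw [Matrix.SpecialLinearGroup.mem_center_iff] at hB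
    obtain ⟨r, hr, hrB⟩ := hB
    have hr0 : r ≠ 0 := by
      rintro rfl
      rw [Fintype.card_fin, zero_pow (by omega)] at hr
      exact zero_ne_one hr
    rw [h01 r hr0, map_one] at hrB
    rw [Subgroup.mem_bot]
    apply Subtype.ext
    rw [← hrB]
    rfl
  have hinj : Function.Injective
      (QuotientGroup.mk' (Subgroup.center (Matrix.SpecialLinearGroup (Fin n) F))) := by
    rw [← MonoidHom.ker_eq_bot_iff, QuotientGroup.ker_mk', hcen]
  refine ⟨QuotientGroup.mk' _ A', ?_⟩
  rw [orderOf_injective _ hinj, hA', hA, hM, hF]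

end Cfsg.Agent.Lib.Helper11.SpecProd
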