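import Mathlib
import Cfsg.Agent.Lib.Helper58.SpecProd.Defs

/-!
SpecProd package [UB] (helper11): `p`-elements of `PSL_n(q)` have order at most the least
power of `p` that is `≥ n`.
-/

set_option autoImplicit false

namespace Cfsg.Agent.Lib.Helper11.SpecProd

open Cfsg.Agent.Lib.Helper58.SpecProd

universe u

/-- A nilpotent `n × n` matrix over a field has `n`-th power zero. -/
theorem nilpotent_pow_card {F : Type*} [Field F] {n : ℕ} (N : Matrix (Fin n) (Fin n) F)
    (hN : IsNilpotent N) : N ^ n = 0 := by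
  have h1 : N.charpoly = Polynomial.X ^ n := by
    have h := Matrix.isNilpotent_charpoly_sub_pow_of_isNilpotent hN
    rw [Fintype.card_fin] at h
    exact sub_eq_zero.mp h.eq_zero
  have h2 := Matrix.aeval_self_charpoly N
  rw [h1] at h2
  simpa using h2

/-- [UB] -/
theorem pkgUBound : PkgUBound.{u} := by
  intro F _ _ p a n hp hcard hn x t T₀ hx hnT
  haveI : Fact p.Prime := ⟨hp⟩
  have ha : a ≠ 0 := by
    rintro rfl
    have h1 := Fintype.one_lt_card (α := F)
    rw [hcard] at h1
    simp at h1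
  haveI : CharP F p := charP_of_card_eq_prime_pow hcard
  haveI : NeZero n := ⟨by omega⟩
  obtain ⟨A, rfl⟩ := QuotientGroup.mk_surjective x
  have hq2 : 2 ≤ Fintype.card F := Fintype.one_lt_card
  have hAc : A ^ (p ^ t) ∈ Subgroup.center (Matrix.SpecialLinearGroup (Fin n) F) := by
    rw [← QuotientGroup.eq_one_iff, QuotientGroup.mk_pow, ← hx]
    exact pow_orderOf_eq_one _
  rw [Matrix.SpecialLinearGroup.mem_center_iff] at hAc
  obtain ⟨c, hcn, hc⟩ := hAc
  have hc0 : c ≠ 0 := by
    rintro rfl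
    rw [Fintype.card_fin, zero_pow (by omega)] at hcn
    exact zero_ne_one hcn
  have hcq : c ^ (Fintype.card F - 1) = 1 := FiniteField.pow_card_sub_one_eq_one c hc0
  have hB : (A ^ (Fintype.card F - 1)) ^ (p ^ t) = 1 := by
    apply Subtype.ext
    rw [← pow_mul, mul_comm, pow_mul, Matrix.SpecialLinearGroup.coe_pow, ← hc, ← map_pow, hcq,
      map_one]
    rfl
  have hcop : Nat.Coprime (p ^ t) (Fintype.card F - 1) := by
    apply Nat.Coprime.pow_left
    rw [Nat.Prime.coprime_iff_not_dvd hp]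
    intro hd
    have h1 : p ∣ Fintype.card F := by
      rw [hcard]
      exact dvd_pow_self p ha
    have h2 : p ∣ Fintype.card F - (Fintype.card F - 1) := Nat.dvd_sub h1 hd
    have h3 : Fintype.card F - (Fintype.card F - 1) = 1 := by omega
    rw [h3] at h2
    exact hp.one_lt.ne' (Nat.dvd_one.mp h2)
  have hoB : orderOf ((QuotientGroup.mk (A ^ (Fintype.card F - 1)) :
      Matrix.ProjectiveSpecialLinearGroup (Fin n) F)) = p ^ t := by
    rw [QuotientGroup.mk_pow, Nat.Coprime.orderOf_pow (by rw [hx]; exact hcop), hx]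
  have h1 : p ^ t ∣ orderOf (A ^ (Fintype.card F - 1)) := by
    rw [← hoB]
    exact orderOf_map_dvd (QuotientGroup.mk' _) _
  have h2 : (A ^ (Fintype.card F - 1)) ^ (p ^ T₀) = 1 := by
    apply Subtype.ext
    have hBm : ((A ^ (Fintype.card F - 1) : Matrix.SpecialLinearGroup (Fin n) F) :
        Matrix (Fin n) (Fin n) F) ^ (p ^ t) = 1 := by
      have h := congrArg Subtype.val hB
      rw [Matrix.SpecialLinearGroup.coe_pow] at h
      exact h
    rw [Matrix.SpecialLinearGroup.coe_pow]
    generalize ((A ^ (Fintype.card F - 1) : Matrix.SpecialLinearGroup (Fin n) F) :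
        Matrix (Fin n) (Fin n) F) = Bm at hBm ⊢
    have hnil : (Bm - 1) ^ (p ^ t) = 0 := by
      rw [sub_pow_char_pow_of_commute _ _ (Commute.one_right Bm), hBm, one_pow, sub_self]
    have hN : (Bm - 1) ^ n = 0 := nilpotent_pow_card _ ⟨_, hnil⟩
    have hN' : (Bm - 1) ^ (p ^ T₀) = 0 := pow_eq_zero_of_le hnT hN
    rw [sub_pow_char_pow_of_commute _ _ (Commute.one_right Bm), one_pow, sub_eq_zero] at hN'
    exact hN'
  have h3 : p ^ t ∣ p ^ T₀ := h1.trans (orderOf_dvd_of_pow_eq_one h2)
  exact (Nat.pow_dvd_pow_iff_le_right hp.one_lt).mp h3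

end Cfsg.Agent.Lib.Helper11.SpecProd
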